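import Mathlib
import Cfsg.Agent.Lib.Helper48.S4415.RedDefs

/-!
# S4415, package [RED], sub-package [R-SETUPM]

The module fields of `Setup` for the restricted representation `resRep ρ H F hF`:
injective, irreducible, Jordan.
-/

set_option autoImplicit false

namespace Cfsg.Agent.Lib.Helper87.S4415

open Cfsg.Agent.Lib.Helper78.S4415 Cfsg.Agent.Lib.Helper48.S4415

universe u v

/-- [R-SETUPM] -/
theorem pkgSetupM : Cfsg.Agent.Lib.Helper48.S4415.PkgSetupM.{u, v} := by
  intro S _ _ E _ _ _ ρ H F F' b hbH hF hfaith hirr hsup hF' hJ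
  refine ⟨?_, ?_, ?_⟩
  · -- injective
    rw [injective_iff_map_eq_one]
    intro g hg
    have h1 : ∀ v ∈ F, ρ (g : S) v = v := by
      intro v hv
      have h2 : resRep ρ H F hF g ⟨v, hv⟩ = (⟨v, hv⟩ : ↥F) := by
        rw [hg]
        rfl
      have h3 := congrArg (fun w : ↥F => (w : E)) h2
      exact h3
    have h4 : (g : S) = 1 := hfaith g g.2 h1
    exact Subtype.ext h4
  · -- irreducible
    intro N hN
    have hle : N.map F.subtype ≤ F := by
      rintro _ ⟨w, _, rfl⟩
      exact w.2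
    have hinv : ∀ r ∈ H, ∀ v ∈ N.map F.subtype, ρ r v ∈ N.map F.subtype := by
      rintro r hr _ ⟨w, hw, rfl⟩
      exact ⟨resRep ρ H F hF ⟨r, hr⟩ w, hN ⟨r, hr⟩ w hw, rfl⟩
    rcases hirr _ hle hinv with h | h
    · left
      rw [eq_bot_iff]
      intro w hw
      have h1 : (F.subtype w) ∈ N.map F.subtype := ⟨w, hw, rfl⟩
      rw [h] at h1
      have h2 : (w : E) = 0 := (Submodule.mem_bot _).mp h1
      rw [Submodule.mem_bot]
      exact Subtype.ext h2
    · right
      rw [eq_top_iff]
      intro w _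
      have h1 : (w : E) ∈ N.map F.subtype := by
        rw [h]
        exact w.2
      obtain ⟨w', hw', hw'2⟩ := h1
      have h2 : w' = w := Subtype.ext hw'2
      rw [← h2]
      exact hw'
  · -- Jordan
    obtain ⟨v, hv1, hv2⟩ := hJ
    have hvtop : v ∈ F ⊔ F' := by
      rw [hsup]
      exact Submodule.mem_top
    obtain ⟨v0, hv0, v1, hv1', rfl⟩ := Submodule.mem_sup.mp hvtop
    have hb1 : ρ b v1 = v1 := hF' v1 hv1'
    have e1 : ρ b (v0 + v1) - (v0 + v1) = ρ b v0 - v0 := by
      rw [map_add, hb1]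
      abel
    rw [e1] at hv1
    refine ⟨⟨v0, hv0⟩, ?_, ?_⟩
    · intro h0
      apply hv1
      have h1 := congrArg (fun w : ↥F => (w : E)) h0
      exact h1
    · intro x
      obtain ⟨a, c, hac⟩ := hv2 (x : E)
      rw [e1] at hac
      refine ⟨a, c, ?_⟩
      apply Subtype.ext
      exact hac

end Cfsg.Agent.Lib.Helper87.S4415
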