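import Mathlib
import Cfsg.Agent.Lib.Helper65.S4415.ExtDefs

/-!
# S4415, package [EXT], sub-package [X-DIM]

In the setting of [EXT] with the elements `x, y` of (X1): `|V| = 81`.
-/

set_option autoImplicit false

namespace Cfsg.Agent.Lib.Helper87.S4415

open Cfsg.Agent.Lib.Helper78.S4415 Cfsg.Agent.Lib.Helper65.S4415

universe u v

/-- [X-DIM] -/
theorem pkgXDim : Cfsg.Agent.Lib.Helper65.S4415.PkgXDim.{u, v} := by
  intro G _ _ V _ _ _ ρ R b Q hS hFr x y z hz hxx hyy hyx hbx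
  have em : ∀ (g h : G) (w : V), ρ (g * h) w = ρ g (ρ h w) := by
    intro g h w
    rw [map_mul]
    rfl
  have hX2 : ∀ v, ρ x (ρ x v) = -v := by
    intro v
    rw [← em, hxx, hz]
  have hY2 : ∀ v, ρ y (ρ y v) = -v := by
    intro v
    rw [← em, hyy, hz]
  have hYX : ∀ v, ρ y (ρ x v) = -ρ x (ρ y v) := by
    intro v
    rw [← em, hyx, em, em, hz]
  have hg2 : ∀ v, ρ (x * y) (ρ (x * y) v) = -v := by
    intro v
    rw [em, em, hYX, hY2]
    simp only [map_neg, neg_neg, hX2]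
  have h3 : ∀ v : V, v + v + v = 0 := by
    intro v
    have h : (3 : ZMod 3) • v = 0 := by
      rw [show (3 : ZMod 3) = 0 from by decide, zero_smul]
    rw [← h]
    module
  -- inverse of x
  have hxinv : ∀ w, ρ x⁻¹ w = -ρ x w := by
    intro w
    have h1 : ρ x⁻¹ (ρ x (ρ x w)) = ρ x w := by
      rw [← em, inv_mul_cancel, map_one]
      rfl
    rw [hX2, map_neg] at h1
    rw [← h1, neg_neg]
  have hgrp : y * x⁻¹ = b * (x * b⁻¹ * x⁻¹) := by
    rw [← hbx]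
    group
  have hxy : ∀ w, ρ (x * y) w = ρ b (ρ (x * b⁻¹ * x⁻¹) w) := by
    intro w
    have e1 : ρ b (ρ (x * b⁻¹ * x⁻¹) w) = ρ (y * x⁻¹) w := by rw [← em, ← hgrp]
    rw [e1, em y x⁻¹ w, hxinv, map_neg, hYX, neg_neg, em]
  -- Jordan data
  obtain ⟨v₁, hn, hsp⟩ := hS.jordan
  -- every vector is in the span of four vectors
  have hsurj : Function.Surjective
      (fun t : (ZMod 3 × ZMod 3) × (ZMod 3 × ZMod 3) =>
        t.1.1 • (ρ b v₁ - v₁) + t.1.2 • (ρ b (ρ b v₁ - v₁) - (ρ b v₁ - v₁)) +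
        t.2.1 • ρ (x * b⁻¹) (ρ b v₁ - v₁) +
        t.2.2 • ρ (x * b⁻¹) (ρ b (ρ b v₁ - v₁) - (ρ b v₁ - v₁))) := by
    intro v
    -- w with (ρ g - 1) w = v
    have hw : ρ (x * y) (ρ (x * y) v + v) - (ρ (x * y) v + v) = v := by
      rw [map_add, hg2]
      have h4 : -v + ρ (x * y) v - (ρ (x * y) v + v) = v - (v + v + v) := by abel
      rw [h4, h3, sub_zero]
    generalize ρ (x * y) v + v = w at hw
    obtain ⟨a, c, h1⟩ := hsp (ρ (x * b⁻¹ * x⁻¹) w)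
    obtain ⟨a', c', h2⟩ := hsp (ρ x⁻¹ w)
    refine ⟨((a, c), (-a', -c')), ?_⟩
    show a • (ρ b v₁ - v₁) + c • (ρ b (ρ b v₁ - v₁) - (ρ b v₁ - v₁)) +
        (-a') • ρ (x * b⁻¹) (ρ b v₁ - v₁) +
        (-c') • ρ (x * b⁻¹) (ρ b (ρ b v₁ - v₁) - (ρ b v₁ - v₁)) = v
    rw [← hw, hxy]
    -- c w - w = - ρ (x b⁻¹) (ρ b u - u), u = ρ x⁻¹ w
    have h5 : ρ (x * b⁻¹ * x⁻¹) w - w = -ρ (x * b⁻¹) (ρ b (ρ x⁻¹ w) - ρ x⁻¹ w) := by
      have h6 : w = ρ x (ρ x⁻¹ w) := by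
        rw [← em, mul_inv_cancel, map_one]
        rfl
      have h7 : ρ (x * b⁻¹) (ρ b (ρ x⁻¹ w)) = ρ x (ρ x⁻¹ w) := by
        rw [← em]
        congr 2
        group
      rw [map_sub, h7, ← h6, em (x * b⁻¹) x⁻¹ w]
      abel
    have h8 : ρ b (ρ (x * b⁻¹ * x⁻¹) w) - w =
        (ρ b (ρ (x * b⁻¹ * x⁻¹) w) - ρ (x * b⁻¹ * x⁻¹) w) + (ρ (x * b⁻¹ * x⁻¹) w - w) := by
      abel
    rw [h8, h5, h1, h2, map_add, map_smul, map_smul]
    module
  have hle : Nat.card V ≤ 81 := by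
    have h := Nat.card_le_card_of_surjective _ hsurj
    rw [Nat.card_prod, Nat.card_prod] at h
    simpa using h
  -- lower bound from the frame
  obtain ⟨q₁, q₂, w₁, w₂, w₃, -, -, -, -, -, -, -, -, -, -, -, -, -, -, -, -, -, -, -, -, huniq⟩ := hFr
  have hinj : Function.Injective
      (fun t : ZMod 3 × ZMod 3 × ZMod 3 => t.1 • w₁ + t.2.1 • w₂ + t.2.2 • w₃) := by
    rintro ⟨a₁, a₂, a₃⟩ ⟨c₁, c₂, c₃⟩ h
    have h1 : a₁ • w₁ + a₂ • w₂ + a₃ • w₃ = c₁ • w₁ + c₂ • w₂ + c₃ • w₃ := h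
    have h2 : (0 : V) + (a₁ - c₁) • w₁ + (a₂ - c₂) • w₂ + (a₃ - c₃) • w₃ = 0 := by
      have h3' : (0 : V) + (a₁ - c₁) • w₁ + (a₂ - c₂) • w₂ + (a₃ - c₃) • w₃ =
          (a₁ • w₁ + a₂ • w₂ + a₃ • w₃) - (c₁ • w₁ + c₂ • w₂ + c₃ • w₃) := by module
      rw [h3', h1, sub_self]
    obtain ⟨-, e1, e2, e3⟩ := huniq 0 _ _ _ (map_zero _) (map_zero _) h2
    rw [sub_eq_zero] at e1 e2 e3
    rw [e1, e2, e3]
  have hge : 27 ≤ Nat.card V := by
    have h := Nat.card_le_card_of_injective _ hinj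
    rw [Nat.card_prod, Nat.card_prod] at h
    simpa using h
  -- the cardinality is a power of 3
  have hpow : Nat.card V = 3 ^ Module.finrank (ZMod 3) V := by
    rw [Module.natCard_eq_pow_finrank (K := ZMod 3), Nat.card_zmod]
  -- the dimension is not 3
  have hd3 : Module.finrank (ZMod 3) V ≠ 3 := by
    intro hd
    have hJJ : (ρ (x * y)).comp (ρ (x * y)) = (-1 : ZMod 3) • (LinearMap.id : V →ₗ[ZMod 3] V) := by
      apply LinearMap.ext
      intro v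
      rw [LinearMap.comp_apply, hg2]
      simp
    have h1 := congrArg LinearMap.det hJJ
    rw [LinearMap.det_comp, LinearMap.det_smul, LinearMap.det_id, hd] at h1
    have h2 : ∀ t : ZMod 3, t * t ≠ (-1) ^ 3 * 1 := by decide
    exact h2 _ h1
  rw [hpow] at hle hge ⊢
  have hd : Module.finrank (ZMod 3) V = 4 := by
    have h1 : Module.finrank (ZMod 3) V ≤ 4 := by
      by_contra hcon
      push_neg at hcon
      have : 3 ^ 5 ≤ 3 ^ Module.finrank (ZMod 3) V := Nat.pow_le_pow_right (by norm_num) hcon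
      omega
    have h2 : 3 ≤ Module.finrank (ZMod 3) V := by
      by_contra hcon
      push_neg at hcon
      have : 3 ^ Module.finrank (ZMod 3) V ≤ 3 ^ 2 := Nat.pow_le_pow_right (by norm_num) (by omega)
      omega
    omega
  rw [hd]
  norm_num

end Cfsg.Agent.Lib.Helper87.S4415
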