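import Mathlib
import Cfsg.Agent.Lib.Helper65.S4415.ExtDefs

/-!
# S4415, package [EXT], sub-package [X-MODEL]

A space `V` of 81 elements over `F_3` with operators `I`, `J`, `I² = J² = -1`, `J I = -I J`,
is the quaternion model: `V ≃ H` with `I ↦ L_i`, `J ↦ L_j`.
-/

set_option autoImplicit false

namespace Cfsg.Agent.Lib.Helper87.S4415

open Cfsg.Agent.Lib.Helper78.S4415 Cfsg.Agent.Lib.Helper65.S4415

universe v

section

variable {V : Type v} [AddCommGroup V] [Module (ZMod 3) V]

/-- `v, I v` are independent for `v ≠ 0` -/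
theorem xm_ind2 (I : V →ₗ[ZMod 3] V) (hI : ∀ v, I (I v) = -v) (v : V) (a b : ZMod 3)
    (hv : v ≠ 0) (h : a • v + b • I v = 0) : a = 0 ∧ b = 0 := by
  have sq : ∀ a b : ZMod 3, a * a + b * b = 0 → a = 0 ∧ b = 0 := by decide
  have h1 : (a * a + b * b) • v = 0 := by
    have h2 : a • (a • v + b • I v) - b • I (a • v + b • I v) = (a * a + b * b) • v := by
      rw [map_add, map_smul, map_smul, hI]
      module
    rw [← h2, h]
    simp
  rcases smul_eq_zero.mp h1 with h3 | h3
  · exact sq a b h3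
  · exact absurd h3 hv

/-- if `w` is outside the `I`-line of `v`, then the `I`-line of `w` meets it trivially -/
theorem xm_line (I : V →ₗ[ZMod 3] V) (hI : ∀ v, I (I v) = -v) (v w : V) (a b c d : ZMod 3)
    (hw : ∀ a' b' : ZMod 3, w ≠ a' • v + b' • I v)
    (h : c • w + d • I w = a • v + b • I v) : c = 0 ∧ d = 0 := by
  have sq : ∀ a b : ZMod 3, a * a + b * b = 0 → a = 0 ∧ b = 0 := by decide
  by_contra hcon
  have hs : c * c + d * d ≠ 0 := fun h0 => hcon (sq c d h0)
  have h1 : c • (c • w + d • I w) - d • I (c • w + d • I w) = (c * c + d * d) • w := by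
    rw [map_add, map_smul, map_smul, hI]
    module
  have h2 : c • (a • v + b • I v) - d • I (a • v + b • I v) =
      (c * a + d * b) • v + (c * b - d * a) • I v := by
    rw [map_add, map_smul, map_smul, hI]
    module
  rw [h] at h1
  rw [h2] at h1
  have h3 : w = ((c * c + d * d)⁻¹ * (c * a + d * b)) • v +
      ((c * c + d * d)⁻¹ * (c * b - d * a)) • I v := by
    have h4 : w = (c * c + d * d)⁻¹ • ((c * c + d * d) • w) := by
      rw [smul_smul, inv_mul_cancel₀ hs, one_smul]
    rw [h4, ← h1, smul_add, smul_smul, smul_smul]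
  exact hw _ _ h3

/-- `v, I v, w, I w` are independent when `v ≠ 0` and `w` is outside the `I`-line of `v` -/
theorem xm_ind4 (I : V →ₗ[ZMod 3] V) (hI : ∀ v, I (I v) = -v) (v w : V) (a b c d : ZMod 3)
    (hv : v ≠ 0) (hw : ∀ a' b' : ZMod 3, w ≠ a' • v + b' • I v)
    (h : a • v + b • I v + c • w + d • I w = 0) : a = 0 ∧ b = 0 ∧ c = 0 ∧ d = 0 := by
  have h1 : c • w + d • I w = (-a) • v + (-b) • I v := by
    have h2 : c • w + d • I w = (a • v + b • I v + c • w + d • I w) - (a • v + b • I v) := by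
      abel
    rw [h2, h]
    module
  obtain ⟨hc, hd⟩ := xm_line I hI v w (-a) (-b) c d hw h1
  subst hc
  subst hd
  have h3 : a • v + b • I v = 0 := by
    have h4 : a • v + b • I v = a • v + b • I v + (0 : ZMod 3) • w + (0 : ZMod 3) • I w := by
      simp
    rw [h4, h]
  obtain ⟨ha, hb⟩ := xm_ind2 I hI v a b hv h3
  exact ⟨ha, hb, rfl, rfl⟩

/-- existence of a vector `v₀` with `J v₀` outside the `I`-line of `v₀` -/
theorem xm_exists [Finite V] (I J : V →ₗ[ZMod 3] V) (hcard : Nat.card V = 81)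
    (hI : ∀ v, I (I v) = -v) (hJ : ∀ v, J (J v) = -v) (hJI : ∀ v, J (I v) = -I (J v)) :
    ∃ v0 : V, v0 ≠ 0 ∧ ∀ a b : ZMod 3, J v0 ≠ a • v0 + b • I v0 := by
  by_contra hcon
  have hall : ∀ v : V, ∃ a b : ZMod 3, J v = a • v + b • I v := by
    intro v
    by_cases hv : v = 0
    · exact ⟨0, 0, by rw [hv]; simp⟩
    · by_contra h2
      apply hcon
      refine ⟨v, hv, ?_⟩
      intro a b hab
      exact h2 ⟨a, b, hab⟩
  haveI : Nontrivial V := (Finite.one_lt_card_iff_nontrivial).mp (by rw [hcard]; norm_num)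
  obtain ⟨v, hv⟩ := exists_ne (0 : V)
  -- a vector outside the line of `v`
  have hout : ∃ v' : V, ∀ a' b' : ZMod 3, v' ≠ a' • v + b' • I v := by
    by_contra h2
    push_neg at h2
    have hsurj : Function.Surjective (fun ab : ZMod 3 × ZMod 3 => ab.1 • v + ab.2 • I v) := by
      intro v'
      obtain ⟨a', b', h3⟩ := h2 v'
      exact ⟨(a', b'), h3.symm⟩
    have h4 := Nat.card_le_card_of_surjective _ hsurj
    rw [hcard, Nat.card_prod] at h4
    simp at h4
  obtain ⟨v', hv'⟩ := hout
  obtain ⟨a, b, hab⟩ := hall v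
  obtain ⟨a', b', hab'⟩ := hall v'
  obtain ⟨a2, b2, hab2⟩ := hall (v + v')
  obtain ⟨a3, b3, hab3⟩ := hall (v + I v')
  -- step A
  have hA : (a - a2) • v + (b - b2) • I v + (a' - a2) • v' + (b' - b2) • I v' = 0 := by
    rw [map_add, map_add, hab, hab'] at hab2
    have h5 : (a - a2) • v + (b - b2) • I v + (a' - a2) • v' + (b' - b2) • I v' =
        (a • v + b • I v + (a' • v' + b' • I v')) - (a2 • (v + v') + b2 • (I v + I v')) := by
      module
    rw [h5, hab2, sub_self]
  obtain ⟨hA1, hA2, hA3, hA4⟩ := xm_ind4 I hI v v' _ _ _ _ hv hv' hA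
  -- step B
  have hB : (a - a3) • v + (b - b3) • I v + (b' + b3) • v' + (-a' - a3) • I v' = 0 := by
    rw [map_add, map_add, hJI, hab, hab', hI, map_add, map_smul, map_smul, hI] at hab3
    have h5 : (a - a3) • v + (b - b3) • I v + (b' + b3) • v' + (-a' - a3) • I v' =
        (a • v + b • I v + -(a' • I v' + b' • -v')) - (a3 • (v + I v') + b3 • (I v + -v')) := by
      module
    rw [h5, hab3, sub_self]
  obtain ⟨hB1, hB2, hB3, hB4⟩ := xm_ind4 I hI v v' _ _ _ _ hv hv' hB
  have e1 : ∀ a a2 a' a3 : ZMod 3, a - a2 = 0 → a' - a2 = 0 → a - a3 = 0 → -a' - a3 = 0 →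
      a = 0 := by decide
  have e2 : ∀ b b2 b' b3 : ZMod 3, b - b2 = 0 → b' - b2 = 0 → b - b3 = 0 → b' + b3 = 0 →
      b = 0 := by decide
  have ha0 : a = 0 := e1 a a2 a' a3 hA1 hA3 hB1 hB4
  have hb0 : b = 0 := e2 b b2 b' b3 hA2 hA4 hB2 hB3
  rw [ha0, hb0] at hab
  simp only [zero_smul, add_zero] at hab
  have h6 := hJ v
  rw [hab, map_zero] at h6
  exact hv (neg_eq_zero.mp h6.symm)

end

/-- `H` has 81 elements -/
theorem xm_card_H : Nat.card H = 81 := by
  have h1 : Nat.card H = Nat.card (ZMod 3 × ZMod 3 × ZMod 3 × ZMod 3) :=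
    Nat.card_congr (QuaternionAlgebra.equivProd (-1 : ZMod 3) 0 (-1))
  rw [h1]
  simp [Nat.card_prod]

/-- [X-MODEL] -/
theorem pkgXModel : Cfsg.Agent.Lib.Helper65.S4415.PkgXModel.{v} := by
  intro V _ _ _ I J hcard hI hJ hJI
  obtain ⟨v0, hv0, hout⟩ := xm_exists I J hcard hI hJ hJI
  let ψ : H →ₗ[ZMod 3] V :=
    { toFun := fun h => h.re • v0 + h.imI • I v0 + h.imJ • J v0 + h.imK • I (J v0)
      map_add' := by
        intro h h'
        simp only [Quaternion.re_add, Quaternion.imI_add, Quaternion.imJ_add, Quaternion.imK_add]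
        module
      map_smul' := by
        intro c h
        simp only [Quaternion.re_smul, Quaternion.imI_smul, Quaternion.imJ_smul,
          Quaternion.imK_smul, RingHom.id_apply, smul_eq_mul]
        module }
  have hψ : ∀ h : H, ψ h = h.re • v0 + h.imI • I v0 + h.imJ • J v0 + h.imK • I (J v0) :=
    fun h => rfl
  have hinj : Function.Injective ψ := by
    rw [injective_iff_map_eq_zero]
    intro h hh
    rw [hψ] at hh
    obtain ⟨h1, h2, h3, h4⟩ := xm_ind4 I hI v0 (J v0) _ _ _ _ hv0 hout hh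
    exact Quaternion.ext (a := h) (b := 0) h1 h2 h3 h4
  have hbij : Function.Bijective ψ :=
    Function.Injective.bijective_of_nat_card_le hinj (by rw [hcard, xm_card_H])
  let e : H ≃ₗ[ZMod 3] V := LinearEquiv.ofBijective ψ hbij
  have he : ∀ h : H, e h = ψ h := fun h => rfl
  refine ⟨e.symm, ?_, ?_⟩
  · intro v
    rw [LinearEquiv.symm_apply_eq, he, hψ]
    have hv : v = ψ (e.symm v) := (e.apply_symm_apply v).symm
    generalize e.symm v = h at hv
    subst hv
    rw [hψ]
    simp only [map_add, map_smul, hI]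
    have r1 : (qi * h).re = -h.imI := by
      rw [Quaternion.re_mul]
      simp [qi]
    have r2 : (qi * h).imI = h.re := by
      rw [Quaternion.imI_mul]
      simp [qi]
    have r3 : (qi * h).imJ = -h.imK := by
      rw [Quaternion.imJ_mul]
      simp [qi]
    have r4 : (qi * h).imK = h.imJ := by
      rw [Quaternion.imK_mul]
      simp [qi]
    rw [r1, r2, r3, r4]
    module
  · intro v
    rw [LinearEquiv.symm_apply_eq, he, hψ]
    have hv : v = ψ (e.symm v) := (e.apply_symm_apply v).symm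
    generalize e.symm v = h at hv
    subst hv
    rw [hψ]
    simp only [map_add, map_smul, hJ, hJI, map_neg]
    have r1 : (qj * h).re = -h.imJ := by
      rw [Quaternion.re_mul]
      simp [qj]
    have r2 : (qj * h).imI = h.imK := by
      rw [Quaternion.imI_mul]
      simp [qj]
    have r3 : (qj * h).imJ = h.re := by
      rw [Quaternion.imJ_mul]
      simp [qj]
    have r4 : (qj * h).imK = -h.imI := by
      rw [Quaternion.imK_mul]
      simp [qj]
    rw [r1, r2, r3, r4]
    module

end Cfsg.Agent.Lib.Helper87.S4415
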